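import Cfsg.Agent.Characters.Clifford
import Cfsg.Agent.Blocks.Over
import Cfsg.Agent.CharactersDeep.NormalInd
import Cfsg.Agent.OddOrderCharacters.OutsideCentral
import Cfsg.Agent.H117.O1.Bridge
import Cfsg.Agent.S0193

/-!
# BH / Row2L: an irreducible character which vanishes off a normal subgroup (helper61)

* `LamA.ind_eq` : the induced constituent is a multiple of the character;
* `LamA.clif` : the same inside an arbitrary group.
-/

set_option autoImplicit false
set_option linter.unusedSectionVars false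

namespace Cfsg.Agent.BH.R2.LamA

open Cfsg Subgroup Cfsg.Agent.Characters Cfsg.Agent.Characters.Core Cfsg.Agent.CharactersDeep
open scoped ComplexConjugate

/-- the induced constituent -/
theorem ind_eq {J : Type} [Group J] [Fintype J] (N : Subgroup J) [N.Normal] [Fintype N] {f : J → ℂ}
    (hf : IsIrrCharacter J f) (h0 : ∀ g, g ∉ N → f g = 0) {lam : N → ℂ} (hl : IsIrrCharacter N lam)
    (ho : classInner (fun n : N => f n) lam ≠ 0) : ∃ e : ℕ, e ≠ 0 ∧ indFun N lam = (e : ℂ) • f := by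
  classical
  obtain ⟨e, he⟩ := classInner_isNat (isIrr_isCharacter hl) (Clifford.isCharacter_restrict N (isIrr_isCharacter hf))
  have he0 : e ≠ 0 := fun h => ho (by rw [← classInner_conj_symm, he, h, Nat.cast_zero, map_zero])
  refine ⟨e, he0, classFunction_ext (NormalInd.indFun_isClassFunction N lam)
    (fun g h => by rw [Pi.smul_apply, Pi.smul_apply, isIrr_isClassFunction hf g h]) fun χ hχ => ?_⟩
  rw [NormalInd.classInner_indFun N lam χ (isIrr_isClassFunction hχ), classInner_smul_left]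
  by_cases h : f = χ
  · rw [← h, he, classInner_irr_self hf, mul_one]
  rw [classInner_irr_ne hf hχ h, mul_zero]
  by_contra h1
  have h2 : classInner (fun n : N => χ n) lam ≠ 0 := fun h2 => h1 (by rw [← classInner_conj_symm, h2, map_zero])
  have h3 := Blocks.Over.sum_mul_eq_of_over N hχ hl h2 (fun n => conj (f n)) fun g n => by
    rw [MulAut.conjNormal_apply, isIrr_isClassFunction hf]
  have h4 : ∑ n : N, conj (f n) * χ n = 0 := by
    have h5 := classInner_irr_ne hχ hf (Ne.symm h)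
    rw [classInner_def, mul_eq_zero, inv_eq_zero, or_iff_right card_ne_zero_complex,
      ← Finset.sum_filter_add_sum_filter_not Finset.univ (fun g => g ∈ N),
      Finset.sum_eq_zero (s := Finset.univ.filter fun g => ¬ g ∈ N) fun g hg => by
        rw [h0 g (Finset.mem_filter.1 hg).2, map_zero, mul_zero], add_zero,
      Finset.sum_subtype (p := fun g => g ∈ N) _ (by simp)] at h5
    rw [← h5]
    exact Finset.sum_congr rfl fun n _ => mul_comm _ _
  rw [h4, zero_div, eq_comm, div_eq_zero_iff, or_iff_left (isIrr_apply_one_ne_zero hl)] at h3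
  rw [classInner_def, Finset.sum_congr rfl fun n _ => mul_comm (lam n) _, h3, mul_zero] at he
  exact he0 (Nat.cast_eq_zero.1 he.symm)

/-- **Clifford theory** for a character of `J` which vanishes off `L` -/
theorem clif {Y : Type} [Group Y] {J L : Subgroup Y} [Finite J] (hLJ : L ≤ J)
    (hn : ∀ j ∈ J, ∀ g ∈ L, j * g * j⁻¹ ∈ L) {f : Y → ℂ} (hf : IsIrrCharacter J fun g => f g)
    (h0 : ∀ g, g ∉ L → f g = 0) :
    ∃ (lam : Y → ℂ) (e : ℕ), e ≠ 0 ∧ IsIrrCharacter L (fun g => lam g) ∧ (∀ g, g ∉ L → lam g = 0) ∧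
      (∀ g, (e * Nat.card L : ℂ) * f g = ∑ᶠ j : J, lam ((j : Y)⁻¹ * g * j)) ∧
      (∀ j ∈ J, (∀ g, lam (j * g * j⁻¹) = lam g) → j ^ e ^ 2 ∈ L) ∧
      (∀ D ≤ L, (∀ j ∈ J, ∀ d ∈ D, j * d * j⁻¹ ∈ D) → (∀ d ∈ D, f d = f 1) → ∀ d ∈ D, lam d = lam 1) ∧
      ∀ x : Y, (∀ g, x * g * x⁻¹ ∈ L ↔ g ∈ L) → (∀ g, f (x * g * x⁻¹) = f g) →
        ∃ j ∈ J, ∀ g, lam (j * x * g * (j * x)⁻¹) = lam g := by
  classical
  have := Fintype.ofFinite J
  let N := L.subgroupOf J
  have hN : N.Normal := ⟨fun n h j => hn j j.2 n h⟩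
  have := Fintype.ofFinite N
  let q : N ≃* L := subgroupOfEquivOfLe hLJ
  obtain ⟨l, hl, ho⟩ := H117.O1.exists_constituent N hf
  obtain ⟨e, he, hi⟩ := ind_eq N hf (fun g hg => h0 g hg) hl ho
  have hl' : IsIrrCharacter L (l ∘ q.symm) := isIrr_comp q.symm.toMonoidHom q.symm.surjective hl
  let lam := extendByZero L (l ∘ q.symm)
  have k0 : ∀ g, g ∉ L → lam g = 0 := fun g hg => extendByZero_of_notMem _ _ hg
  have k1 : ∀ n : N, lam (n : J) = l n := fun n => extendByZero_of_mem L (l ∘ q.symm) n.2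
  have k2 : ∀ j : J, extendByZero N l j = lam j := fun j => by
    by_cases h : j ∈ N
    · rw [extendByZero_of_mem _ _ h]
      exact (k1 ⟨j, h⟩).symm
    · rw [extendByZero_of_notMem _ _ h, k0 j h]
  have k3 : Nat.card N = Nat.card L := Nat.card_congr q.toEquiv
  have k4 : ∀ j ∈ J, ∀ g, j * g * j⁻¹ ∈ L ↔ g ∈ L := fun j hj g =>
    ⟨fun h => by simpa [mul_assoc] using hn j⁻¹ (inv_mem hj) _ h, hn j hj g⟩
  refine ⟨lam, e, he, ?_, k0, fun g => ?_, fun j hj h => ?_, fun D hD h1 h2 d hd => ?_, fun x h1 h2 => ?_⟩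
  · rwa [show (fun g : L => lam g) = l ∘ q.symm from funext fun g => extendByZero_of_mem L _ g.2]
  · by_cases hg : g ∈ J
    · have h1 := congrFun hi ⟨g, hg⟩
      rw [indFun_apply, inv_mul_eq_iff_eq_mul₀ card_ne_zero_complex, Pi.smul_apply, smul_eq_mul, k3] at h1
      rw [finsum_eq_sum_of_fintype, mul_comm (e : ℂ), mul_assoc, ← h1]
      exact Finset.sum_congr rfl fun j _ => k2 _
    · rw [h0 g fun h => hg (hLJ h), mul_zero, finsum_congr (g := fun _ => 0) fun j => k0 _ fun h => hg ?_, finsum_zero]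
      have h1 := hLJ h
      rwa [mul_mem_cancel_right j.2, mul_mem_cancel_left (inv_mem j.2)] at h1
  · let T : Subgroup J :=
      { carrier := {g | ∀ n : N, l (MulAut.conjNormal g n) = l n}
        one_mem' := fun n => by rw [map_one, MulAut.one_apply]
        mul_mem' := fun {a b} ha hb n => by rw [map_mul, MulAut.mul_apply, ha, hb]
        inv_mem' := fun {a} ha n => by rw [← ha, map_inv, MulAut.apply_inv_self] }
    have h1 := S0193.result N l hl
    rw [hi, classInner_smul_left, classInner_smul_right, classInner_irr_self hf, mul_one, map_natCast] at h1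
    have h2 : Nat.card N * (e * e) = Nat.card T := by exact_mod_cast h1
    have h3 : N ≤ T := fun g hg n => isIrr_isClassFunction hl n ⟨g, hg⟩
    have h4 : N.relIndex T = e ^ 2 := by
      have h5 := (N.subgroupOf T).card_mul_index
      rw [Nat.card_congr (subgroupOfEquivOfLe h3).toEquiv, ← h2] at h5
      rw [pow_two]
      exact Nat.eq_of_mul_eq_mul_left Nat.card_pos h5
    have h5 : (⟨j, hj⟩ : J) ∈ T := fun n => by
      rw [← k1, ← k1]
      exact h _
    have h6 := N.pow_relIndex_mem h5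
    rw [h4] at h6
    exact h6
  · have : (D.subgroupOf J).Normal := ⟨fun n h j => h1 j j.2 n h⟩
    have h3 := OddOrderCharacters.OutsideCentral.ker_of_indFun_ker N (D.subgroupOf J) hl
      (fun z hz => by rw [hi, Pi.smul_apply, Pi.smul_apply, h2 z hz]; rfl) ⟨⟨d, hLJ (hD hd)⟩, hD hd⟩ hd
    rw [← k1, ← k1] at h3
    exact h3
  · have hx : x ∈ normalizer (L : Set Y) := mem_normalizer_iff.2 fun g => (h1 g).symm
    let φ : N ≃* N := q.trans ((L.normalizerMonoidHom ⟨x⁻¹, inv_mem hx⟩).trans q.symm)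
    have h3 : ∀ n : N, (((φ n : N) : J) : Y) = x⁻¹ * (n : J) * x⁻¹⁻¹ := fun _ => rfl
    have h4 : (fun n : N => f (n : J)) ∘ φ = fun n : N => f (n : J) := funext fun n => by
      rw [Function.comp_apply, h3, ← h2]
      congr 1
      group
    obtain ⟨j, hj⟩ := Clifford.exists_conj_of_constituents N hf hl (isIrr_comp φ.toMonoidHom φ.surjective hl) ho (by
      rw [← h4]
      exact (Clifford.classInner_comp_mulEquiv φ _ _).trans_ne ho)
    refine ⟨j, j.2, fun g => ?_⟩
    by_cases hg : g ∈ L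
    · have h5 := congrFun hj ⟨⟨_, hLJ ((h1 g).2 hg)⟩, (h1 g).2 hg⟩
      rw [Function.comp_apply, Function.comp_apply, ← k1, ← k1] at h5
      refine Eq.trans ?_ (h5.symm.trans ?_)
      · congr 1
        show _ = j * (x * g * x⁻¹) * (j : Y)⁻¹
        group
      · congr 1
        show x⁻¹ * (x * g * x⁻¹) * x⁻¹⁻¹ = g
        group
    · rw [k0 g hg, k0 _ fun h => hg ((h1 g).1 ((k4 j j.2 _).1 ?_))]
      rwa [show j * (x * g * x⁻¹) * (j : Y)⁻¹ = j * x * g * (j * x)⁻¹ by group]

end Cfsg.Agent.BH.R2.LamA
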